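import Cfsg.Agent.BS.Basic
import Cfsg.Agent.FT.Defs

/-! Minimal simple groups with abelian Sylow 2-subgroups: Thompson's transitivity theorem. -/

set_option autoImplicit false
set_option linter.unusedSectionVars false

namespace Cfsg.Agent.H3.AbSyl

open Subgroup FT BS

universe u

variable {G : Type u} [Group G] [Finite G]

/-- a nonsolvable simple group all of whose proper subgroups are solvable -/
structure MinS (G : Type u) [Group G] : Prop where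
  sol : ∀ H : Subgroup G, H ≠ ⊤ → Group.IsSolvable H
  simple : ∀ H : Subgroup G, ⊤ ≤ 𝐍(H) → H = ⊥ ∨ H = ⊤
  nsol : ¬ Group.IsSolvable (⊤ : Subgroup G)

variable {H T X Y Q₁ Q₂ : Subgroup G} {q : ℕ}

theorem MinS.ne_top (hG : MinS G) (h : Group.IsSolvable H) : H ≠ ⊤ := fun e => hG.nsol (e ▸ h)
theorem MinS.norm_proper (hG : MinS G) (h1 : H ≠ ⊥) (h2 : Group.IsSolvable H) : 𝐍(H) ≠ ⊤ :=
  fun e => (hG.simple H e.ge).elim h1 (hG.ne_top h2)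
theorem MinS.cent1_proper (hG : MinS G) {x : G} (h1 : x ≠ 1) : 𝐂[x] ≠ ⊤ := by
  rw [← cent_zpowers]
  exact ne_top_of_le (cent_le_norm _) (hG.norm_proper (zpowers_eq_bot.not.2 h1)
    (isSolvable_of_nil (isNilpotent_of_comm inferInstance)))

theorem le_core2_of_comm {p : ℕ} [Fact p.Prime] (hs : Group.IsSolvable X) (hT : Syl p T X)
    (hc : IsMulCommutative T) : T ≤ core2 {p}ᶜ {p} X :=
  (le_inf hT.le ((comm_iff_le_cent.1 hc).trans (cent_anti inf_le_left))).trans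
    (solvable_p_constrained hs (Syl.inf_of_nrm hT (core2_nrm _ _ X)))
theorem eq_core_sup_norm {p : ℕ} [Fact p.Prime] (hs : Group.IsSolvable X) (hT : Syl p T X)
    (hc : IsMulCommutative T) : X ≤ core {p}ᶜ X ⊔ (X ⊓ 𝐍(T)) := by
  have h1 := le_core2_of_comm hs hT hc
  conv_lhs => rw [← Syl.frattini' (hT.of_le h1 (core2_le _ _ X)) (core2_nrm _ _ X)]
  exact sup_le ((core2_eq_sup (Syl.hall hT)).le.trans (sup_le_sup_left
    (inf_le_left.trans (le_inf hT.le le_normalizer)) _)) le_sup_right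
theorem le_core_of_comm {p : ℕ} [Fact p.Prime] (hs : Group.IsSolvable X) (hT : Syl p T X)
    (hc : IsMulCommutative T) (hY : Y ≤ X) (h1 : PiG {p}ᶜ Y) (h2 : T ≤ 𝐍(Y)) :
    Y ≤ core {p}ᶜ X := by
  have h3 := le_core2_of_comm hs hT hc
  have h4 : Y ≤ core2 {p}ᶜ {p} X := by
    rw [← H2.centralizer_sup_commutator h2 (coprime_of_isPGroup hT.isPGroup h1)
      (Or.inr (isSolvable_of_le hY hs))]
    exact sup_le ((inf_le_inf_right _ hY).trans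
      (solvable_p_constrained hs (hT.of_le h3 (core2_le _ _ X))))
      ((commutator_mono le_rfl h3).trans
        (commutator_le_right' (hY.trans (core2_nrm _ _ X).norm)))
  rw [← core_core2 {p}ᶜ {p} X]
  exact Hall.le_core (pNil_core2 p X) h4 h1

section trans
variable {p : ℕ} [Fact p.Prime] [Fact q.Prime]

theorem meet_trans_step (hG : MinS G) (hT : Syl p T ⊤) (hc : IsMulCommutative T) (hq : q ≠ p)
    (h1 : T ≤ H) (h2 : H ≠ ⊤) (hQ₁ : MaxN q T Q₁) (hQ₂ : MaxN q T Q₂) :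
    ∃ k ∈ 𝐂(T) ⊓ H, ∃ Q₃, MaxN q T Q₃ ∧ cj k (Q₁ ⊓ H) ≤ Q₃ ∧ Q₂ ⊓ H ≤ Q₃ := by
  have hn : T ≤ 𝐍(core {p}ᶜ H) := h1.trans (core_nrm _ H).norm
  have hc' := coprime_of_isPGroup hT.isPGroup (core_piG {p}ᶜ H)
  have hs := isSolvable_of_le (core_le {p}ᶜ H) (hG.sol H h2)
  have key : ∀ Q, MaxN q T Q → ∃ R, Syl q R (core {p}ᶜ H) ∧ Q ⊓ H ≤ R ∧ T ≤ 𝐍(R) :=
    fun Q hQ =>
    have h3 := isPGroup_of_le (inf_le_left : Q ⊓ H ≤ Q) hQ.isPGroup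
    have h4 := le_normalizer_inf hQ.norm (h1.trans le_normalizer)
    exists_invariant_syl_ge hn hc' (Or.inr hs) h3
      (le_core_of_comm (hG.sol H h2) (hT.of_le h1 le_top) hc inf_le_right
        (piG_compl_of_isPGroup_ne h3 hq) h4) h4
  obtain ⟨R₁, a1, b1, c1⟩ := key Q₁ hQ₁
  obtain ⟨R₂, a2, b2, c2⟩ := key Q₂ hQ₂
  obtain ⟨k, hk, e⟩ := a1.hall.exists_cent_cj_eq a2.hall hn hc' hs c1 c2
  obtain ⟨Q₃, h3, h4⟩ := exists_maxN_ge a2.isPGroup c2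
  exact ⟨k, ⟨hk.2, core_le _ H hk.1⟩, Q₃, h3, ((cj_mono k b1).trans e.le).trans h4, b2.trans h4⟩

theorem meet_trans (hG : MinS G) (hT : Syl p T ⊤) (hc : IsMulCommutative T) (hq : q ≠ p)
    (h1 : T ≤ H) (h2 : H ≠ ⊤) (hQ₁ : MaxN q T Q₁) (hQ₂ : MaxN q T Q₂) (h3 : Q₁ ⊓ H ≠ ⊥)
    (h4 : Q₂ ⊓ H ≠ ⊥) : ∃ k ∈ 𝐂(T), cj k Q₁ = Q₂ := by
  induction hn : Nat.card G - ♯(Q₁ ⊓ Q₂ : Subgroup G) using Nat.strong_induction_on
    generalizing H Q₁ Q₂ with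
  | _ n ih =>
  have aux : ∀ H, T ≤ H → H ≠ ⊤ → Q₁ ⊓ Q₂ < Q₁ ⊓ H → Q₁ ⊓ Q₂ < Q₂ ⊓ H →
      ∃ k ∈ 𝐂(T), cj k Q₁ = Q₂ := by
    intro H h1 h2 h3 h4
    obtain ⟨k, hk, Q₃, a, b, c⟩ := meet_trans_step hG hT hc hq h1 h2 hQ₁ hQ₂
    have h5 : cj k (Q₁ ⊓ H) ≠ ⊥ := cj_eq_bot_iff.not.2 (bot_le.trans_lt h3).ne'
    have h6 : cj k (Q₁ ⊓ H) ≤ H := cj_le_of_le hk.2 inf_le_right
    have h7 := card_lt_of_lt h3
    have h8 := card_lt_of_lt h4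
    have h9 := card_le_of_le' (le_inf (cj_mono k (inf_le_left : Q₁ ⊓ H ≤ Q₁)) b)
    have h10 := card_le_of_le' (le_inf (inf_le_left : Q₂ ⊓ H ≤ Q₂) c)
    have h11 := card_le_card_group (cj k Q₁ ⊓ Q₃)
    have h12 := card_le_card_group (Q₂ ⊓ Q₃)
    rw [card_cj] at h9
    obtain ⟨k₁, hk₁, e₁⟩ := ih _ (by omega) h1 h2 (hQ₁.cj_of_mem (cent_le_norm T hk.1)) a
      (ne_bot_of_le (le_inf (cj_mono k inf_le_left) h6) h5) (ne_bot_of_le (le_inf b h6) h5) rfl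
    obtain ⟨k₂, hk₂, e₂⟩ := ih _ (by omega) h1 h2 hQ₂ a (bot_le.trans_lt h4).ne'
      (ne_bot_of_le (le_inf c inf_le_right) (bot_le.trans_lt h4).ne') rfl
    exact ⟨k₂⁻¹ * (k₁ * k), mul_mem (inv_mem hk₂) (mul_mem hk₁ hk.1), by
      rw [cj_mul, cj_mul, e₁, ← e₂, cj_inv_cj]⟩
  by_cases h0 : Q₁ ⊓ Q₂ = ⊥
  · exact aux H h1 h2 (h0 ▸ bot_lt_iff_ne_bot.2 h3) (h0 ▸ bot_lt_iff_ne_bot.2 h4)
  by_cases he : Q₁ = Q₂
  · exact ⟨1, one_mem _, by rw [cj_one, he]⟩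
  exact aux 𝐍(Q₁ ⊓ Q₂) (le_normalizer_inf hQ₁.norm hQ₂.norm)
    (hG.norm_proper h0 (isSolvable_of_isPGroup (isPGroup_of_le inf_le_left hQ₁.isPGroup)))
    (lt_inf_normalizer hQ₁.isPGroup.isNilpotent (inf_lt_left.2 fun h =>
      he (hQ₁.max _ hQ₂.isPGroup hQ₂.norm h).symm))
    (lt_inf_normalizer hQ₂.isPGroup.isNilpotent (inf_lt_right.2 fun h =>
      he (hQ₂.max _ hQ₁.isPGroup hQ₁.norm h)))

/-- Thompson's transitivity theorem for an abelian Sylow subgroup of rank at least 3 -/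
theorem rank3_trans (hG : MinS G) (hT : Syl p T ⊤) (hc : IsMulCommutative T) (hq : q ≠ p)
    (h : 3 ≤ prank p T) (hQ₁ : MaxN q T Q₁) (hQ₂ : MaxN q T Q₂) : ∃ k ∈ 𝐂(T), cj k Q₁ = Q₂ := by
  have h0 : ∀ {Q₁ Q₂}, MaxN q T Q₁ → MaxN q T Q₂ → Q₁ = ⊥ → Q₂ = ⊥ := fun hQ₁ hQ₂ h =>
    (hQ₁.max _ hQ₂.isPGroup hQ₂.norm (h ▸ bot_le)).trans h
  by_cases h1 : Q₁ = ⊥
  · exact ⟨1, one_mem _, by rw [cj_one, h1, h0 hQ₁ hQ₂ h1]⟩
  obtain ⟨B, hB⟩ := exists_pnElem_of_le_prank h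
  have hr : p.Prime := Fact.out
  obtain ⟨C, hC, hC1, hC2⟩ : ∃ C ≤ B, ♯B = ♯C * p ∧ Q₁ ⊓ 𝐂(C) ≠ ⊥ := by
    by_contra h3
    push Not at h3
    exact h1 (le_bot_iff.1 (H2.le_of_forall_centralizer_hyperplane_le hB.comm hB.abelem.2
      (hB.ne_bot (by norm_num)) (hB.le.trans hQ₁.norm)
        (coprime_of_isPGroup_ne hB.isPGroup hQ₁.isPGroup hq.symm) fun C a b => (h3 C a b).le))
  have hC3 : PnElem p 2 C B := ⟨hC, hB.abelem.of_le hC, Nat.eq_of_mul_eq_mul_right hr.pos (by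
    rw [← hC1, hB.card]; ring)⟩
  obtain ⟨z, hz, hz1, hz2⟩ : ∃ z ∈ C, z ≠ 1 ∧ Q₂ ⊓ 𝐂[z] ≠ ⊥ := by
    by_contra h3
    push Not at h3
    exact h1 (h0 hQ₂ hQ₁ (le_bot_iff.1 (H2.le_of_forall_centralizer_le hC3.comm
      (hC3.not_isCyclic le_rfl) ((hC.trans hB.le).trans hQ₂.norm)
      (coprime_of_isPGroup_ne hC3.isPGroup hQ₂.isPGroup hq.symm) fun a ha h2 => (h3 a ha h2).le)))
  exact meet_trans hG hT hc hq (le_cent1_iff.2 (comm_iff_le_cent.1 hc (hB.le (hC hz))))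
    (hG.cent1_proper hz1) hQ₁ hQ₂ (ne_bot_of_le (inf_le_inf_left _ (cent_le_cent1 hz)) hC2) hz2
end trans

/-- a subgroup containing `N(T)` and the centralizers of the involutions of the abelian Sylow
2-subgroup `T` is strongly embedded -/
theorem oneFix_of_le {M : Subgroup G} (hT : Syl 2 T ⊤) (hc : IsMulCommutative T) (h1 : 𝐍(T) ≤ M)
    (h2 : ∀ t ∈ T, t ≠ 1 → 𝐂[t] ≤ M) : OneFix G (G ⧸ M) := by
  have key : ∀ g, ∀ t ∈ T, orderOf t = 2 → g⁻¹ * t * g ∈ M → g ∈ M := fun g t ht h3 h4 => by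
    have hTM := le_normalizer.trans h1
    obtain ⟨m, hm, h5⟩ := (hT.of_le hTM le_top).exists_cj_le (Q := zpowers (g⁻¹ * t * g))
      (isPGroup_zpowers (k := 1) (by
        rw [pow_one, pow_two]
        simpa using sq1 (ord2_conj h3 g⁻¹))) (zpowers_le.2 h4)
    have h6 : t ∈ cj (g * m⁻¹) T := by
      rw [mem_cj]
      have := h5 (conj_mem_cj (mem_zpowers _))
      convert this using 1; group
    have h7 : T ≤ 𝐂[t] := le_cent1_iff.2 (comm_iff_le_cent.1 hc ht)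
    have h8 : cj (g * m⁻¹) T ≤ 𝐂[t] := le_cent1_iff.2 (comm_iff_le_cent.1 (comm_cj _ hc) h6)
    obtain ⟨c, hc1, e⟩ := (hT.of_le h7 le_top).exists_cj_eq
      ((hT.cj_of_mem (mem_top _)).of_le h8 le_top)
    rw [← cj_mul, cj_eq_iff_mem_normalizer] at e
    simpa using mul_mem (mul_mem (inv_mem (h2 t ht (ne1 h3) hc1)) (h1 e)) hm
  have fx : ∀ t g : G, t • (g : G ⧸ M) = g ↔ g⁻¹ * t * g ∈ M := fun t g => by
    rw [MulAction.Quotient.smul_coe, smul_eq_mul, eq_comm, QuotientGroup.eq, mul_assoc]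
  have cjT : ∀ t : G, orderOf t = 2 → ∃ g : G, g⁻¹ * t * g ∈ T := fun t ht => by
    obtain ⟨g, -, h5⟩ := Syl.exists_le_cj hT (Q := zpowers t) (isPGroup_zpowers (k := 1) (by
      rw [pow_one, pow_two, sq1 ht])) le_top
    exact ⟨g, mem_cj.1 (h5 (mem_zpowers t))⟩
  refine ⟨fun t ht => ?_, fun t ht a b ha hb => ?_⟩
  · obtain ⟨g, hg⟩ := cjT t ht
    exact ⟨g, (fx t g).2 (h1 (le_normalizer hg))⟩
  · obtain ⟨g, hg⟩ := cjT t ht
    have h3 : orderOf (g⁻¹ * t * g) = 2 := by simpa using ord2_conj ht g⁻¹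
    have h4 : ∀ a : G ⧸ M, t • a = a → a = g := fun a => by
      induction a using QuotientGroup.induction_on with
      | H a =>
      intro ha
      rw [eq_comm, QuotientGroup.eq]
      refine key _ _ hg h3 ?_
      convert (fx t a).1 ha using 1; group
    rw [h4 a ha, h4 b hb]

end Cfsg.Agent.H3.AbSyl
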