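import Mathlib

/-! A concrete model of the field with four elements. -/

set_option autoImplicit false

namespace Cfsg.Agent.H3

/-- the field with four elements -/
inductive F4 : Type
  | o | i | w | v
  deriving DecidableEq

namespace F4

instance instFintypeF4 : Fintype F4 := ⟨{o, i, w, v}, by intro x; cases x <;> decide⟩

/-- addition -/
def add : F4 → F4 → F4
  | o, x => x
  | x, o => x
  | i, i => o | i, w => v | i, v => w
  | w, i => v | w, w => o | w, v => i
  | v, i => w | v, w => i | v, v => o

/-- multiplication -/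
def mul : F4 → F4 → F4
  | o, _ => o
  | _, o => o
  | i, x => x
  | x, i => x
  | w, w => v | w, v => i
  | v, w => i | v, v => w

/-- conjugation -/
def cj : F4 → F4
  | o => o | i => i | w => v | v => w

instance instAddF4 : Add F4 := ⟨add⟩
instance instMulF4 : Mul F4 := ⟨mul⟩
instance instNegF4 : Neg F4 := ⟨id⟩
instance instInvF4 : Inv F4 := ⟨cj⟩
instance instZeroF4 : Zero F4 := ⟨o⟩
instance instOneF4 : One F4 := ⟨i⟩

instance instFieldF4 : Field F4 :=
  Field.ofMinimalAxioms F4 (by decide) (by decide) (by decide) (by decide) (by decide) (by decide)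
    (by decide) (by decide) (by decide) ⟨o, i, by decide⟩

/-- the Frobenius automorphism -/
def τ : F4 ≃+* F4 where
  toFun := cj
  invFun := cj
  left_inv := by decide
  right_inv := by decide
  map_mul' := by decide
  map_add' := by decide

theorem card_eq : Fintype.card F4 = 4 := rfl

theorem τ_eq (x : F4) : τ x = x ^ 2 := by revert x; decide

theorem τ_τ (x : F4) : τ (τ x) = x := by revert x; decide

theorem orderOf_τ : orderOf τ = 2 := by
  haveI : Fact (Nat.Prime 2) := ⟨Nat.prime_two⟩
  refine orderOf_eq_prime (RingEquiv.ext fun x => ?_) fun h => ?_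
  · rw [pow_two]; exact τ_τ x
  · have : τ w = w := by rw [h]; rfl
    exact absurd this (by decide)

theorem add_self (x : F4) : x + x = 0 := by revert x; decide

theorem two_eq_zero : (2 : F4) = 0 := by
  rw [← one_add_one_eq_two]; exact add_self 1

instance instCharPF4 : CharP F4 2 := CharTwo.of_one_ne_zero_of_two_eq_zero one_ne_zero two_eq_zero

theorem τ_mul_self {x : F4} (h : x ≠ 0) : τ x * x = 1 := by revert x; decide

theorem mul_τ_self {x : F4} (h : x ≠ 0) : x * τ x = 1 := by revert x; decide

theorem τ_ne_zero {x : F4} (h : x ≠ 0) : τ x ≠ 0 := by revert x; decide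

theorem translation (σ : F4 → F4) (h1 : ∀ x, σ x ≠ x) (h2 : ∀ x, σ (σ x) = x) (x : F4) :
    σ x = x + σ 0 := by
  have key : ∀ x m s : F4, m ≠ x → s ≠ 0 → (x = 0 → m = s) → (x = s → m = 0) → (m = 0 → s = x) →
      (m = s → x = 0) → m = x + s := by decide
  refine key x (σ x) (σ 0) (h1 x) (h1 0) (fun e => by rw [e]) (fun e => by rw [e, h2])
    (fun e => by rw [← e, h2]) (fun e => by rw [← h2 x, e, h2])

end F4

end Cfsg.Agent.H3
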