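import Cfsg.Agent.H2.Dih
import Cfsg.Agent.H1.Basic
import Mathlib.Algebra.Group.MinimalAxioms

/-! The wreath product `D₈ ≀ 2`, a Sylow `2`-subgroup of `S₈`. -/

set_option autoImplicit false

namespace Cfsg.Agent.H3

open Subgroup DihedralGroup

/-- The wreath product of the dihedral group of order `8` by a group of order `2`. -/
@[ext] structure Wr8 where
  x : DihedralGroup 4
  y : DihedralGroup 4
  e : Bool
  deriving DecidableEq

namespace Wr8

instance : Fintype Wr8 := Fintype.ofEquiv (DihedralGroup 4 × DihedralGroup 4 × Bool)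
  ⟨fun p => ⟨p.1, p.2.1, p.2.2⟩, fun w => ⟨w.x, w.y, w.e⟩, fun _ => rfl, fun _ => rfl⟩

instance : Mul Wr8 := ⟨fun v w => match v.e with
  | false => ⟨v.x * w.x, v.y * w.y, w.e⟩
  | true => ⟨v.x * w.y, v.y * w.x, !w.e⟩⟩

instance : One Wr8 := ⟨⟨1, 1, false⟩⟩

instance : Inv Wr8 := ⟨fun v => match v.e with
  | false => ⟨v.x⁻¹, v.y⁻¹, false⟩
  | true => ⟨v.y⁻¹, v.x⁻¹, true⟩⟩

theorem mul_false (x y x' y' : DihedralGroup 4) (e : Bool) :
    (⟨x, y, false⟩ : Wr8) * ⟨x', y', e⟩ = ⟨x * x', y * y', e⟩ := rfl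

theorem mul_true (x y x' y' : DihedralGroup 4) (e : Bool) :
    (⟨x, y, true⟩ : Wr8) * ⟨x', y', e⟩ = ⟨x * y', y * x', !e⟩ := rfl

instance : Group Wr8 := Group.ofLeftAxioms
  (by rintro ⟨x, y, _ | _⟩ ⟨x', y', _ | _⟩ ⟨x'', y'', e⟩ <;> simp [mul_false, mul_true, mul_assoc])
  (by rintro ⟨x, y, e⟩; exact (mul_false _ _ _ _ _).trans (by simp))
  (by
    rintro ⟨x, y, _ | _⟩
    · exact (mul_false _ _ _ _ _).trans (by simp only [inv_mul_cancel]; rfl)
    · exact (mul_true _ _ _ _ _).trans (by simp only [inv_mul_cancel]; rfl))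

theorem card : Nat.card Wr8 = 128 := by
  rw [Nat.card_eq_fintype_card, Fintype.ofEquiv_card]; simp [DihedralGroup.card]

def a1 : Wr8 := ⟨sr 0, 1, false⟩
def b1 : Wr8 := ⟨sr 1, 1, false⟩
def a2 : Wr8 := ⟨1, sr 0, false⟩
def b2 : Wr8 := ⟨1, sr 1, false⟩
def τ : Wr8 := ⟨1, 1, true⟩
def z1 : Wr8 := ⟨r 2, 1, false⟩
def z2 : Wr8 := ⟨1, r 2, false⟩
def z : Wr8 := ⟨r 2, r 2, false⟩

theorem dih_gen {K : Subgroup (DihedralGroup 4)} (ha : sr 0 ∈ K) (hb : sr 1 ∈ K)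
    (x : DihedralGroup 4) : x ∈ K := by
  have h : x = 1 ∨ x = sr 0 * sr 1 ∨ x = sr 0 * sr 1 * (sr 0 * sr 1) ∨ x = sr 1 * sr 0 ∨ x = sr 0 ∨
      x = sr 1 ∨ x = sr 1 * (sr 0 * sr 1) ∨ x = sr 0 * sr 1 * sr 0 := by revert x; decide
  rcases h with rfl | rfl | rfl | rfl | rfl | rfl | rfl | rfl <;>
    simp only [mul_mem, one_mem, ha, hb]

def inl : DihedralGroup 4 →* Wr8 := MonoidHom.mk' (fun x => ⟨x, 1, false⟩) fun _ _ => by
  rw [mul_false, mul_one]

def inr : DihedralGroup 4 →* Wr8 := MonoidHom.mk' (fun x => ⟨1, x, false⟩) fun _ _ => by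
  rw [mul_false, mul_one]

/-- The base group. -/
def B : Subgroup Wr8 where
  carrier := {w | w.e = false}
  one_mem' := rfl
  mul_mem' := by rintro ⟨x, y, e⟩ ⟨x', y', e'⟩ (rfl : e = false) (rfl : e' = false); rfl
  inv_mem' := by rintro ⟨x, y, e⟩ (rfl : e = false); rfl

theorem B_le {K : Subgroup Wr8} (h1 : a1 ∈ K) (h2 : b1 ∈ K) (h3 : a2 ∈ K) (h4 : b2 ∈ K) :
    B ≤ K := by
  rintro ⟨x, y, e⟩ (rfl : e = false)
  have := K.mul_mem (dih_gen (K := K.comap inl) h1 h2 x) (dih_gen (K := K.comap inr) h3 h4 y)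
  change (⟨x, 1, false⟩ : Wr8) * ⟨1, y, false⟩ ∈ K at this
  rwa [mul_false, mul_one, one_mul] at this

theorem mem_of_gen {K : Subgroup Wr8} (h1 : a1 ∈ K) (h2 : b1 ∈ K) (h3 : τ ∈ K) (w : Wr8) :
    w ∈ K := by
  have h := B_le h1 h2 (show τ * a1 * τ ∈ K from mul_mem (mul_mem h3 h1) h3)
    (show τ * b1 * τ ∈ K from mul_mem (mul_mem h3 h2) h3)
  obtain ⟨x, y, _ | _⟩ := w
  · exact h rfl
  · have := K.mul_mem (h (show (⟨x, y, false⟩ : Wr8) ∈ B from rfl)) h3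
    rwa [τ, mul_false, mul_one, mul_one] at this

section lift
variable {H : Type*} [Group H]

/-- The homomorphism from `D₈` given by two involutions. -/
def dih {a b : H} (ha : a * a = 1) (hb : b * b = 1) (hab : (a * b) ^ 4 = 1) :
    DihedralGroup 4 →* H :=
  H2.dihHom hab ha (by
    rw [mul_inv_rev, inv_eq_of_mul_eq_one_right ha, inv_eq_of_mul_eq_one_right hb, ← mul_assoc, ha,
      one_mul])

theorem dih_a {a b : H} (ha : a * a = 1) (hb : b * b = 1) (hab : (a * b) ^ 4 = 1) :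
    dih ha hb hab (sr 0) = a := by simp [dih, H2.dihHom_sr]

theorem dih_b {a b : H} (ha : a * a = 1) (hb : b * b = 1) (hab : (a * b) ^ 4 = 1) :
    dih ha hb hab (sr 1) = b := by
  rw [dih, H2.dihHom_sr, show ((1 : ZMod 4).cast : ℤ) = 1 from rfl, zpow_one, ← mul_assoc, ha,
    one_mul]

/-- The universal property of the wreath product. -/
def lift (f : DihedralGroup 4 →* H) {t : H} (ht : t * t = 1)
    (hc : ∀ x y, Commute (f x) (t * f y * t)) : Wr8 →* H :=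
  MonoidHom.mk' (fun w => f w.x * (t * f w.y * t) * (if w.e then t else 1)) (by
    have h1 : ∀ g, t * (t * g) = g := fun g => by rw [← mul_assoc, ht, one_mul]
    have h2 : ∀ x y g, t * (f y * (t * (f x * g))) = f x * (t * (f y * (t * g))) := fun x y g => by
      simpa only [mul_assoc] using congrArg (· * g) (hc x y).eq.symm
    have h3 : ∀ e : Bool, (if (!e) then t else 1) = t * if e then t else 1 := by
      rintro (_ | _) <;> simp [ht]
    rintro ⟨x, y, _ | _⟩ ⟨x', y', e⟩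
    · simp only [mul_false, map_mul, mul_assoc, Bool.false_eq_true, if_false, one_mul, h1]
      rw [h2 x' y, h1]
    · simp only [mul_true, map_mul, mul_assoc, if_true, h1, h3]
      congr 1
      calc f y' * (t * (f y * (f x' * if e = true then t else 1)))
          = f y' * (t * (f (y * x') * (t * (t * if e = true then t else 1)))) := by
            rw [h1, map_mul, mul_assoc]
        _ = _ := by rw [← h2, map_mul, mul_assoc])

theorem exists_lift {a b t : H} (ha : a * a = 1) (hb : b * b = 1) (hab : (a * b) ^ 4 = 1)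
    (ht : t * t = 1) (h1 : Commute a (t * a * t)) (h2 : Commute a (t * b * t))
    (h3 : Commute b (t * b * t)) : ∃ φ : Wr8 →* H, φ a1 = a ∧ φ b1 = b ∧ φ τ = t := by
  have hti : t⁻¹ = t := inv_eq_of_mul_eq_one_right ht
  have h4 : Commute b (t * a * t) := by
    have := (h2.map (MulAut.conj t)).symm
    simpa [hti, mul_assoc, ht, ← mul_assoc t t] using this
  have key : ∀ g : H, Commute a g → Commute b g → ∀ x, Commute (dih ha hb hab x) g :=
    fun g k1 k2 x => mem_centralizer_singleton_iff.mp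
      (dih_gen (K := (centralizer {g}).comap (dih ha hb hab))
        (by rw [mem_comap, dih_a]; exact mem_centralizer_singleton_iff.mpr k1)
        (by rw [mem_comap, dih_b]; exact mem_centralizer_singleton_iff.mpr k2) x)
  have key2 : ∀ g : H, Commute g (t * a * t) → Commute g (t * b * t) →
      ∀ y, Commute g (t * dih ha hb hab y * t) := fun g k1 k2 y => by
    have e : ∀ u, Commute g (t * u * t) ↔ Commute u (t * g * t) := fun u => by
      constructor <;> intro h <;> have := (h.map (MulAut.conj t)).symm <;>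
        simpa [hti, mul_assoc, ht, ← mul_assoc t t] using this
    exact (e _).mpr (key _ ((e _).mp k1) ((e _).mp k2) y)
  refine ⟨lift (dih ha hb hab) ht fun x y => key _ (key2 a h1 h2 y) (key2 b h4 h3 y) x, ?_, ?_, ?_⟩
  · simp [lift, a1, dih_a, ht]
  · simp [lift, b1, dih_b, ht]
  · simp [lift, τ, ht]

end lift

theorem z_comm : ∀ w : Wr8, w * z = z * w := by decide +kernel

theorem center_eq : center Wr8 = zpowers z := by
  refine le_antisymm (fun w hw => ?_) (zpowers_le.mpr (mem_center_iff.mpr z_comm))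
  have h : ∀ w : Wr8, a1 * w = w * a1 → b1 * w = w * b1 → τ * w = w * τ → w = 1 ∨ w = z := by
    decide +kernel
  rcases h w (mem_center_iff.mp hw _) (mem_center_iff.mp hw _) (mem_center_iff.mp hw _) with
    rfl | rfl
  · exact one_mem _
  · exact mem_zpowers _

theorem orderOf_z : orderOf z = 2 := orderOf_eq_prime (by decide) (by decide)

theorem mem_zpowers_z {w : Wr8} (h : w ∈ zpowers z) : w = 1 ∨ w = z := by
  obtain ⟨i, rfl⟩ := h
  have hz : z ^ (2 : ℤ) = 1 := by decide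
  rcases Int.even_or_odd' i with ⟨m, rfl | rfl⟩ <;> simp [zpow_add, zpow_mul, hz]

theorem isPGroup : IsPGroup 2 Wr8 := IsPGroup.of_card (n := 7) card

theorem injective_of {H : Type*} [Group H] {φ : Wr8 →* H} (h : φ z ≠ 1) :
    Function.Injective φ := by
  rw [injective_iff_map_eq_one]
  intro w hw
  have key : ∀ w : Wr8, w ≠ 1 → w = z ∨ ∃ g : Wr8, w * g * w⁻¹ * g⁻¹ = z ∨
      ∃ k ∈ [a1, b1, τ], w * g * w⁻¹ * g⁻¹ * k * (w * g * w⁻¹ * g⁻¹)⁻¹ * k⁻¹ = z := by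
    decide +kernel
  by_contra hne
  rcases key w hne with rfl | ⟨g, h1 | ⟨k, -, h1⟩⟩
  · exact h hw
  · exact h (by simp [← h1, hw])
  · exact h (by simp [← h1, hw])

theorem sylow (T : Sylow 2 (Equiv.Perm (Fin 8))) :
    Nonempty (Wr8 ≃* (T : Subgroup (Equiv.Perm (Fin 8)))) := by
  obtain ⟨φ, h1, h2, h3⟩ := exists_lift (H := Equiv.Perm (Fin 8)) (a := Equiv.swap 0 1)
    (b := Equiv.swap 0 2 * Equiv.swap 1 3)
    (t := Equiv.swap 0 4 * Equiv.swap 1 5 * Equiv.swap 2 6 * Equiv.swap 3 7)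
    (by decide) (by decide) (by decide) (by decide) (show _ = _ by decide) (show _ = _ by decide)
    (show _ = _ by decide)
  have hinj : Function.Injective φ := injective_of (by
    rw [show z = (a1 * b1) ^ 2 * (τ * (a1 * b1) ^ 2 * τ) by decide]
    simp only [map_mul, map_pow, h1, h2, h3]
    decide)
  have hc : Nat.card φ.range = 128 := by
    rw [← card]; exact (Nat.card_congr (φ.ofInjective hinj).toEquiv).symm
  let T0 : Sylow 2 (Equiv.Perm (Fin 8)) := Sylow.ofCard φ.range (by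
    rw [hc, Nat.card_perm, Nat.card_fin, show Nat.factorial 8 = 2 ^ 7 * 315 by rfl,
      Nat.factorization_mul (by norm_num) (by norm_num), Nat.Prime.factorization_pow Nat.prime_two]
    simp [Nat.factorization_eq_zero_of_not_dvd])
  exact ⟨(φ.ofInjective hinj).trans (T0.equiv T)⟩

/-- Membership in the first normal `E₁₆`. -/
def v1 (w : Wr8) : Bool := !w.e && w.x ∈ [1, r 2, sr 0, sr 2] && w.y ∈ [1, r 2, sr 0, sr 2]

/-- Membership in the second normal `E₁₆`. -/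
def v2 (w : Wr8) : Bool := !w.e && w.x ∈ [1, r 2, sr 1, sr 3] && w.y ∈ [1, r 2, sr 1, sr 3]

def V1 : Subgroup Wr8 where
  carrier := {w | v1 w}
  one_mem' := (by decide : v1 1 = true)
  mul_mem' := fun {a b} ha hb =>
    (by decide +kernel : ∀ a, v1 a → ∀ b, v1 b → v1 (a * b)) a ha b hb
  inv_mem' := fun {a} => (by decide +kernel : ∀ a, v1 a → v1 a⁻¹) a

def V2 : Subgroup Wr8 where
  carrier := {w | v2 w}
  one_mem' := (by decide : v2 1 = true)
  mul_mem' := fun {a b} ha hb =>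
    (by decide +kernel : ∀ a, v2 a → ∀ b, v2 b → v2 (a * b)) a ha b hb
  inv_mem' := fun {a} => (by decide +kernel : ∀ a, v2 a → v2 a⁻¹) a

theorem mem_V1 {w : Wr8} : w ∈ V1 ↔ v1 w := Iff.rfl
theorem mem_V2 {w : Wr8} : w ∈ V2 ↔ v2 w := Iff.rfl

/-- A normal elementary abelian subgroup of order `16`. -/
structure E16 (V : Subgroup Wr8) : Prop where
  norm : ∀ g, ∀ v ∈ V, g * v * g⁻¹ ∈ V
  comm : ∀ v ∈ V, ∀ w ∈ V, v * w = w * v
  sq : ∀ v ∈ V, v * v = 1
  card : Nat.card V = 16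

theorem e16_V1 : E16 V1 :=
  ⟨fun g v hv => (by decide +kernel : ∀ v, v1 v → ∀ g, v1 (g * v * g⁻¹)) v hv g,
    (by decide +kernel : ∀ v, v1 v → ∀ w, v1 w → v * w = w * v),
    (by decide +kernel : ∀ v, v1 v → v * v = 1), by
      change Nat.card {w // v1 w} = 16
      rw [Nat.card_eq_fintype_card]; decide +kernel⟩

theorem e16_V2 : E16 V2 :=
  ⟨fun g v hv => (by decide +kernel : ∀ v, v2 v → ∀ g, v2 (g * v * g⁻¹)) v hv g,
    (by decide +kernel : ∀ v, v2 v → ∀ w, v2 w → v * w = w * v),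
    (by decide +kernel : ∀ v, v2 v → v * v = 1), by
      change Nat.card {w // v2 w} = 16
      rw [Nat.card_eq_fintype_card]; decide +kernel⟩

theorem E16.eq {V : Subgroup Wr8} (h : E16 V) : V = V1 ∨ V = V2 := by
  have h1 : ∀ v : Wr8, v * v = 1 → (∀ g ∈ [τ, a1, b1, a2, b2, a1 * b1],
      v * (g * v * g⁻¹) = g * v * g⁻¹ * v) → v1 v ∨ v2 v := by decide +kernel
  have h2 : ∀ v : Wr8, v1 v → ∀ w : Wr8, v2 w → v * w = w * v →
      τ * v * τ⁻¹ * w = w * (τ * v * τ⁻¹) → v2 v ∨ v1 w := by decide +kernel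
  have h3 : ∀ v ∈ V, v1 v ∨ v2 v := fun v hv =>
    h1 v (h.sq v hv) fun g _ => h.comm v hv _ (h.norm g v hv)
  by_cases h4 : V ≤ V1
  · exact Or.inl (eq_of_le_of_card_ge h4 (by rw [h.card, e16_V1.card]))
  · refine Or.inr (eq_of_le_of_card_ge (fun v hv => ?_) (by rw [h.card, e16_V2.card]))
    obtain ⟨w, hw, hw1⟩ := SetLike.not_le_iff_exists.mp h4
    refine (h3 v hv).elim (fun h5 => ?_) id
    exact (h2 v h5 w ((h3 w hw).resolve_left hw1) (h.comm v hv w hw)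
      (h.comm _ (h.norm τ v hv) w hw)).resolve_right hw1

theorem E16.map {V : Subgroup Wr8} (h : E16 V) (α : Wr8 ≃* Wr8) : E16 (V.map α.toMonoidHom) := by
  refine ⟨?_, ?_, ?_, by rw [card_map_of_injective α.injective, h.card]⟩
  · rintro g _ ⟨v, hv, rfl⟩
    exact ⟨_, h.norm (α.symm g) v hv, by simp⟩
  · rintro _ ⟨v, hv, rfl⟩ _ ⟨w, hw, rfl⟩
    rw [← map_mul, h.comm v hv w hw, map_mul]
  · rintro _ ⟨v, hv, rfl⟩
    rw [← map_mul, h.sq v hv, map_one]

theorem aut_cases (α : Wr8 ≃* Wr8) :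
    ((∀ w, v1 (α w) ↔ v1 w) ∧ ∀ w, v2 (α w) ↔ v2 w) ∨
      ((∀ w, v2 (α w) ↔ v1 w) ∧ ∀ w, v1 (α w) ↔ v2 w) := by
  have key : ∀ {V V' : Subgroup Wr8}, V.map α.toMonoidHom = V' → ∀ w, α w ∈ V' ↔ w ∈ V := by
    rintro V _ rfl w
    exact mem_map_iff_mem (f := α.toMonoidHom) α.injective
  rcases (e16_V1.map α).eq with h1 | h1 <;> rcases (e16_V2.map α).eq with h2 | h2
  · exact absurd ((key h2 a1).mp ((key h1 a1).mpr (show v1 a1 by decide))) (show ¬ v2 a1 by decide)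
  · exact Or.inl ⟨key h1, key h2⟩
  · exact Or.inr ⟨key h1, key h2⟩
  · exact absurd ((key h2 a1).mp ((key h1 a1).mpr (show v1 a1 by decide))) (show ¬ v2 a1 by decide)

/-- `v ∈ c Z(B)`. -/
def co (c v : Wr8) : Bool := v1 (c⁻¹ * v) && v2 (c⁻¹ * v)

theorem pair : ∀ v : Wr8, v1 v → ¬ v2 v → ∀ w : Wr8, v2 w → ¬ v1 w → v * w = w * v →
    (co a1 v ∧ co b2 w) ∨ (co a2 v ∧ co b1 w) := by decide +kernel

theorem co_comm1 : ∀ v : Wr8, co a1 v → ∀ w : Wr8, co b2 w → v * w = w * v := by decide +kernel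

theorem co_comm2 : ∀ v : Wr8, co a2 v → ∀ w : Wr8, co b1 w → v * w = w * v := by decide +kernel

theorem co_τ : ∀ v : Wr8, (co a2 v → co a1 (τ * v * τ⁻¹)) ∧ (co a1 v → co a2 (τ * v * τ⁻¹)) ∧
    (co b2 v → co b1 (τ * v * τ⁻¹)) ∧ (co b1 v → co b2 (τ * v * τ⁻¹)) := by decide +kernel

theorem typeI (α : Wr8 ≃* Wr8) (h1 : ∀ w, v1 (α w) ↔ v1 w) (h2 : ∀ w, v2 (α w) ↔ v2 w) :
    ∃ p : Wr8, ∀ b ∈ B, b⁻¹ * (p * α b * p⁻¹) ∈ V1 ⊓ V2 := by
  have hc : ∀ v w, v * w = w * v ↔ α v * α w = α w * α v := fun v w => by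
    rw [← map_mul, ← map_mul, α.injective.eq_iff]
  have k1 := pair (α a1) (by rw [h1]; decide) (by rw [h2]; decide) (α b2) (by rw [h2]; decide)
    (by rw [h1]; decide) ((hc _ _).mp (by decide))
  have k2 := pair (α a2) (by rw [h1]; decide) (by rw [h2]; decide) (α b1) (by rw [h2]; decide)
    (by rw [h1]; decide) ((hc _ _).mp (by decide))
  have k3 : α a1 * α b1 ≠ α b1 * α a1 := fun h => absurd ((hc _ _).mpr h) (by decide)
  haveI : (V1 ⊓ V2).Normal :=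
    ⟨fun v hv g => ⟨e16_V1.norm g v hv.1, e16_V2.norm g v hv.2⟩⟩
  have key : ∀ p : Wr8, co a1 (p * α a1 * p⁻¹) → co b1 (p * α b1 * p⁻¹) → co a2 (p * α a2 * p⁻¹) →
      co b2 (p * α b2 * p⁻¹) → ∀ b ∈ B, b⁻¹ * (p * α b * p⁻¹) ∈ V1 ⊓ V2 := by
    intro p c1 c2 c3 c4 b hb
    have e : ∀ b, b ∈ (QuotientGroup.mk' (V1 ⊓ V2)).eqLocus ((QuotientGroup.mk' (V1 ⊓ V2)).comp
        (α.trans (MulAut.conj p)).toMonoidHom) ↔ b⁻¹ * (p * α b * p⁻¹) ∈ V1 ⊓ V2 :=
      fun b => QuotientGroup.eq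
    simp only [co, Bool.and_eq_true] at c1 c2 c3 c4
    exact (e b).mp (B_le ((e _).mpr c1) ((e _).mpr c2) ((e _).mpr c3) ((e _).mpr c4) hb)
  rcases k1 with ⟨c1, c2⟩ | ⟨c1, c2⟩ <;> rcases k2 with ⟨c3, c4⟩ | ⟨c3, c4⟩
  · exact absurd (co_comm1 _ c1 _ c4) k3
  · exact ⟨1, key 1 (by simpa using c1) (by simpa using c4) (by simpa using c3) (by simpa using c2)⟩
  · exact ⟨τ, key τ ((co_τ _).1 c1) ((co_τ _).2.2.1 c4) ((co_τ _).2.1 c3) ((co_τ _).2.2.2 c2)⟩
  · exact absurd (co_comm2 _ c1 _ c4) k3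

/-- `v ∈ c Z`. -/
def cz (c v : Wr8) : Bool := v = c || v = c * z

theorem typeII (α : Wr8 ≃* Wr8) (h1 : ∀ w, v2 (α w) ↔ v1 w) (h2 : ∀ w, v1 (α w) ↔ v2 w) :
    ∃ p : Wr8, cz b2 (p * α a1 * p⁻¹) ∧ cz a2 (p * α b1 * p⁻¹) ∧ cz b1 (p * α a2 * p⁻¹) ∧
      cz a1 (p * α b2 * p⁻¹) := by
  have hc : ∀ v w, v * w = w * v ↔ α v * α w = α w * α v := fun v w => by
    rw [← map_mul, ← map_mul, α.injective.eq_iff]
  have k1 := pair (α b2) (by rw [h2]; decide) (by rw [h1]; decide) (α a1) (by rw [h1]; decide)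
    (by rw [h2]; decide) ((hc _ _).mp (by decide))
  have k2 := pair (α b1) (by rw [h2]; decide) (by rw [h1]; decide) (α a2) (by rw [h1]; decide)
    (by rw [h2]; decide) ((hc _ _).mp (by decide))
  have k3 : α b1 * α a1 ≠ α a1 * α b1 := fun h => absurd ((hc _ _).mpr h) (by decide)
  have c0 : ∀ c ∈ [a1, b1, a2, b2], ∀ v, co c v → v ∈ [c, c * z1, c * z2, c * z] := by
    decide +kernel
  have key : ∀ u1 ∈ [b2, b2 * z1, b2 * z2, b2 * z], ∀ u2 ∈ [a2, a2 * z1, a2 * z2, a2 * z],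
      ∀ u3 ∈ [b1, b1 * z1, b1 * z2, b1 * z], ∀ u4 ∈ [a1, a1 * z1, a1 * z2, a1 * z],
      ∃ g ∈ [1, a2], ∃ h ∈ [1, b2], ∃ k ∈ [1, a1], ∃ l ∈ [1, b1],
      cz b2 (g * h * k * l * u1 * (g * h * k * l)⁻¹) ∧ cz a2 (g * h * k * l * u2 * (g * h * k * l)⁻¹) ∧
      cz b1 (g * h * k * l * u3 * (g * h * k * l)⁻¹) ∧
      cz a1 (g * h * k * l * u4 * (g * h * k * l)⁻¹) := by decide +kernel
  rcases k1 with ⟨c1, c2⟩ | ⟨c1, c2⟩ <;> rcases k2 with ⟨c3, c4⟩ | ⟨c3, c4⟩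
  · exact absurd (co_comm1 _ c3 _ c2) k3
  · obtain ⟨g, -, h, -, k, -, l, -, h3⟩ := key _ (c0 _ (by simp) _ c2) _ (c0 _ (by simp) _ c3)
      _ (c0 _ (by simp) _ c4) _ (c0 _ (by simp) _ c1)
    exact ⟨_, h3⟩
  · obtain ⟨g, -, h, -, k, -, l, -, h3⟩ := key _ (c0 _ (by simp) _ ((co_τ _).2.2.2 c2))
      _ (c0 _ (by simp) _ ((co_τ _).2.1 c3)) _ (c0 _ (by simp) _ ((co_τ _).2.2.1 c4))
      _ (c0 _ (by simp) _ ((co_τ _).1 c1))
    exact ⟨g * h * k * l * τ, by simpa only [mul_inv_rev, mul_assoc] using h3⟩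
  · exact absurd (co_comm2 _ c3 _ c2) k3

end Wr8

end Cfsg.Agent.H3
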